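import Mathlib

/-!
# Elements of order 23 and 89 of `GL_11(2)` (helper206, S3499)

`Z` an endomorphism of a space `V` with `2 ^ 11` elements over a field with two elements, `Z ^ s = 1`, `Z ≠ 1`, `s = 23` or
`89`: the centraliser of `Z` is a field with `2 ^ 11` elements.
-/

set_option autoImplicit false
set_option linter.unusedSectionVars false

namespace Cfsg.Agent.H206.EP

variable {F : Type*} [Field F] [Fintype F] {V : Type*} [AddCommGroup V] [Module F V] [FiniteDimensional F V]

/-- the number of elements of an invariant subspace -/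
theorem card_inv_modEq {s : ℕ} [hs : Fact s.Prime] {Z : Module.End F V} (hZ : Z ^ s = 1) (W : Submodule F V)
    (hW : ∀ w ∈ W, Z w ∈ W) : Nat.card W ≡ Nat.card (W ⊓ LinearMap.ker (Z - 1) : Submodule F V) [MOD s] := by
  classical
  have hfV : Finite V := Module.finite_of_finite F
  have := Fintype.ofFinite W
  let f : Function.End W := fun w => ⟨Z w, hW w w.2⟩
  have hfn : ∀ (n : ℕ) (w : W), (((f ^ n) w : W) : V) = (Z ^ n) (w : V) := by
    intro n
    induction n with
    | zero => intro w; rfl
    | succ n ih =>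
      intro w
      rw [pow_succ', pow_succ', Module.End.mul_apply, ← ih w]
      rfl
  have hf : f ^ s ^ 1 = 1 := by
    funext w
    apply Subtype.ext
    rw [pow_one, hfn, hZ]
    rfl
  have h1 := Equiv.Perm.card_fixedPoints_modEq hf
  rw [← Nat.card_eq_fintype_card, ← Nat.card_eq_fintype_card] at h1
  have h2 : Nat.card (Function.fixedPoints f) = Nat.card (W ⊓ LinearMap.ker (Z - 1) : Submodule F V) := by
    refine Nat.card_congr
      { toFun := fun w => ⟨w.1, w.1.2, ?_⟩
        invFun := fun w => ⟨⟨w.1, w.2.1⟩, ?_⟩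
        left_inv := fun w => rfl
        right_inv := fun w => rfl }
    · rw [SetLike.mem_coe, LinearMap.mem_ker, LinearMap.sub_apply, Module.End.one_apply, sub_eq_zero]
      exact congrArg Subtype.val w.2
    · have h3 := w.2.2
      rw [SetLike.mem_coe, LinearMap.mem_ker, LinearMap.sub_apply, Module.End.one_apply, sub_eq_zero] at h3
      exact Subtype.ext h3
  rw [← h2]
  exact h1

/-- the invariant subspaces -/
theorem inv_eq {s : ℕ} [hs : Fact s.Prime] (hF : Fintype.card F = 2) (hV : Module.finrank F V = 11)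
    (hs1 : ∀ j ≤ 11, 2 ^ j ≡ 1 [MOD s] → j = 0 ∨ j = 11) (hs2 : 2 ^ 11 ≡ 1 [MOD s]) {Z : Module.End F V}
    (hZ : Z ^ s = 1) (hZ1 : Z ≠ 1) (W : Submodule F V) (hW : ∀ w ∈ W, Z w ∈ W) : W = ⊥ ∨ W = ⊤ := by
  have hfV : Finite V := Module.finite_of_finite F
  have hcard : ∀ U : Submodule F V, Nat.card U = 2 ^ Module.finrank F U := by
    intro U
    rw [Module.natCard_eq_pow_finrank (K := F), Nat.card_eq_fintype_card, hF]
  have hle : ∀ U : Submodule F V, Module.finrank F U ≤ 11 := fun U => by rw [← hV]; exact Submodule.finrank_le U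
  have key : ∀ U : Submodule F V, Nat.card U ≡ 1 [MOD s] → U = ⊥ ∨ U = ⊤ := by
    intro U hU
    rw [hcard] at hU
    rcases hs1 _ (hle U) hU with h | h
    · exact Or.inl (Submodule.finrank_eq_zero.1 h)
    · exact Or.inr (Submodule.eq_top_of_finrank_eq (by rw [h, hV]))
  have h1 := card_inv_modEq hZ ⊤ (fun _ _ => Submodule.mem_top)
  rw [top_inf_eq, hcard, finrank_top, hV] at h1
  have hker : LinearMap.ker (Z - 1) = ⊥ := by
    rcases key _ (h1.symm.trans hs2) with h | h
    · exact h
    · exfalso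
      apply hZ1
      rw [LinearMap.ker_eq_top, sub_eq_zero] at h
      exact h
  have h2 := card_inv_modEq hZ W hW
  rw [hker, inf_bot_eq, hcard (⊥ : Submodule F V), finrank_bot, pow_zero] at h2
  exact key W h2

section main

variable {s : ℕ} [hs : Fact s.Prime] (hF : Fintype.card F = 2) (hV : Module.finrank F V = 11)
    (hs1 : ∀ j ≤ 11, 2 ^ j ≡ 1 [MOD s] → j = 0 ∨ j = 11) (hs2 : 2 ^ 11 ≡ 1 [MOD s]) {Z : Module.End F V}
    (hZ : Z ^ s = 1) (hZ1 : Z ≠ 1)

include hF hV hs1 hs2 hZ hZ1

/-- an endomorphism commuting with `Z` and killing a vector is zero -/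
theorem eq_zero_of {a : Module.End F V} (ha : a * Z = Z * a) {v : V} (hv : v ≠ 0) (hav : a v = 0) : a = 0 := by
  rcases inv_eq hF hV hs1 hs2 hZ hZ1 (LinearMap.ker a) (fun w hw => by
    rw [LinearMap.mem_ker] at hw ⊢
    have := LinearMap.congr_fun ha w
    rw [Module.End.mul_apply, Module.End.mul_apply, hw, map_zero] at this
    exact this) with h | h
  · exfalso
    apply hv
    have : v ∈ LinearMap.ker a := LinearMap.mem_ker.2 hav
    rwa [h, Submodule.mem_bot] at this
  · exact LinearMap.ker_eq_top.1 h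

/-- every vector is in the orbit of `v` under `F[Z]` -/
theorem exists_adjoin {v : V} (hv : v ≠ 0) (w : V) : ∃ g ∈ Algebra.adjoin F {Z}, g v = w := by
  let W : Submodule F V := (Subalgebra.toSubmodule (Algebra.adjoin F {Z})).map (LinearMap.applyₗ v)
  have hW : ∀ w ∈ W, Z w ∈ W := by
    rintro _ ⟨g, hg, rfl⟩
    exact ⟨Z * g, (Algebra.adjoin F {Z}).mul_mem (Algebra.subset_adjoin rfl) hg, rfl⟩
  have hvW : v ∈ W := ⟨1, (Algebra.adjoin F {Z}).one_mem, rfl⟩
  rcases inv_eq hF hV hs1 hs2 hZ hZ1 W hW with h | h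
  · rw [h, Submodule.mem_bot] at hvW
    exact absurd hvW hv
  · have : w ∈ W := by rw [h]; exact Submodule.mem_top
    obtain ⟨g, hg, h2⟩ := this
    exact ⟨g, hg, h2⟩

theorem exists_ne_zero' : ∃ v : V, v ≠ 0 := by
  by_contra h
  push Not at h
  apply hZ1
  ext v
  rw [h v, map_zero, map_zero]

omit [Fintype F] [FiniteDimensional F V] hF hV hs1 hs2 hZ hZ1 hs in
theorem comm_adjoin {b g : Module.End F V} (hb : b * Z = Z * b) (hg : g ∈ Algebra.adjoin F {Z}) : b * g = g * b := by
  induction hg using Algebra.adjoin_induction with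
  | mem x hx =>
    rw [Set.mem_singleton_iff] at hx
    rw [hx]
    exact hb
  | algebraMap r => exact (Algebra.commutes r b).symm
  | add x y _ _ hx hy => rw [mul_add, add_mul, hx, hy]
  | mul x y _ _ hx hy => rw [← mul_assoc, hx, mul_assoc, hy, mul_assoc]

/-- **The centraliser of `Z` is commutative.** -/
theorem comm_of_comm {a b : Module.End F V} (ha : a * Z = Z * a) (hb : b * Z = Z * b) : a * b = b * a := by
  obtain ⟨v, hv⟩ := exists_ne_zero' hF hV hs1 hs2 hZ hZ1
  obtain ⟨g, hg, h1⟩ := exists_adjoin hF hV hs1 hs2 hZ hZ1 hv (a v)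
  have h2 : a - g = 0 := by
    refine eq_zero_of hF hV hs1 hs2 hZ hZ1 ?_ hv ?_
    · rw [sub_mul, mul_sub, ha, (comm_adjoin (F := F) rfl hg).symm]
    · rw [LinearMap.sub_apply, h1, sub_self]
  rw [sub_eq_zero.1 h2]
  exact (comm_adjoin (F := F) hb hg).symm

/-- **The centraliser of `Z` has `2047` invertible elements.** -/
theorem card_units : Nat.card {a : (Module.End F V)ˣ // (a : Module.End F V) * Z = Z * a} = 2047 := by
  classical
  have hfV : Finite V := Module.finite_of_finite F
  have := Fintype.ofFinite V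
  obtain ⟨v, hv⟩ := exists_ne_zero' hF hV hs1 hs2 hZ hZ1
  have hunit : ∀ a : Module.End F V, a * Z = Z * a → a ≠ 0 → IsUnit a := by
    intro a ha ha0
    rw [Module.End.isUnit_iff]
    have h1 : Function.Injective a := by
      rw [← LinearMap.ker_eq_bot, LinearMap.ker_eq_bot']
      intro w hw
      by_contra hw0
      exact ha0 (eq_zero_of hF hV hs1 hs2 hZ hZ1 ha hw0 hw)
    exact ⟨h1, LinearMap.injective_iff_surjective.1 h1⟩
  have h1 : Nat.card {a : (Module.End F V)ˣ // (a : Module.End F V) * Z = Z * a} = Nat.card {w : V // w ≠ 0} := by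
    refine Nat.card_congr (Equiv.ofBijective (fun a => ⟨(a.1 : Module.End F V) v, ?_⟩) ⟨?_, ?_⟩)
    · intro h
      apply hv
      have h2 : ((a.1⁻¹ : (Module.End F V)ˣ) : Module.End F V) ((a.1 : Module.End F V) v) = v := by
        rw [← Module.End.mul_apply, Units.inv_mul, Module.End.one_apply]
      rw [← h2, h, map_zero]
    · rintro ⟨a, ha⟩ ⟨b, hb⟩ h
      have h2 : (a : Module.End F V) v = (b : Module.End F V) v := congrArg Subtype.val h
      apply Subtype.ext
      apply Units.ext
      have h3 : (a : Module.End F V) - b = 0 := by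
        refine eq_zero_of hF hV hs1 hs2 hZ hZ1 ?_ hv ?_
        · rw [sub_mul, mul_sub, ha, hb]
        · rw [LinearMap.sub_apply, h2, sub_self]
      exact sub_eq_zero.1 h3
    · rintro ⟨w, hw⟩
      obtain ⟨g, hg, h2⟩ := exists_adjoin hF hV hs1 hs2 hZ hZ1 hv w
      have hg0 : g ≠ 0 := by
        rintro rfl
        exact hw h2.symm
      have hgc : g * Z = Z * g := (comm_adjoin (F := F) rfl hg).symm
      obtain ⟨a, ha⟩ := hunit g hgc hg0
      exact ⟨⟨a, by rw [ha]; exact hgc⟩, Subtype.ext (by
        change (a : Module.End F V) v = w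
        rw [ha, h2])⟩
  rw [h1, Nat.card_eq_fintype_card, Fintype.card_subtype_compl, Fintype.card_subtype_eq, ← Nat.card_eq_fintype_card,
    Module.natCard_eq_pow_finrank (K := F), Nat.card_eq_fintype_card, hF, hV]
  norm_num

end main

end Cfsg.Agent.H206.EP

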